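import Cfsg.Agent.MW.Small
import Cfsg.Agent.H26.AutP

/-! Small tools for `2`-groups with a normal elementary abelian subgroup of order `8`. -/

set_option autoImplicit false
set_option linter.style.haveILetI false

namespace Cfsg.Agent.H10R

open Subgroup

variable {G : Type*} [Group G] [Finite G]

theorem pw (hG : IsPGroup 2 G) (H : Subgroup G) : ∃ k, Nat.card H = 2 ^ k :=
  haveI : Fact (Nat.Prime 2) := ⟨Nat.prime_two⟩
  IsPGroup.iff_card.mp (hG.to_subgroup H)

theorem pw_ge {n k : ℕ} (h : ∃ j, n = 2 ^ j) (h1 : 2 ^ k < n) : 2 ^ (k + 1) ≤ n := by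
  obtain ⟨j, rfl⟩ := h
  exact Nat.pow_le_pow_right (by norm_num) ((Nat.pow_lt_pow_iff_right (by norm_num)).mp h1)

theorem di {K M : Subgroup G} (h : K ≤ M) (hc : Nat.card M ≤ 2 * Nat.card K) {a b : G} (ha : a ∈ M) (hb : b ∈ M)
    (a1 : a ∉ K) (b1 : b ∉ K) : a * b ∈ K := by
  have h1 := H11.card_mul_relIndex h
  have h2 := H11.two_mul_card_le_of_lt h ha a1
  have hp : 0 < Nat.card K := Nat.card_pos
  have h3 : (K.subgroupOf M).index = 2 := Nat.eq_of_mul_eq_mul_left hp (by change _ * K.relIndex M = _; omega)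
  have := (mul_mem_iff_of_index_two h3 (a := ⟨a, ha⟩) (b := ⟨b, hb⟩)).mpr (by simpa [mem_subgroupOf, a1] using b1)
  exact this

theorem cle {T Z : Subgroup G} {a : G} (h : ∀ t ∈ T, t * a * t⁻¹ * a⁻¹ ∈ Z) :
    Nat.card T ≤ Nat.card (centralizer ({a} : Set G) ⊓ T : Subgroup G) * Nat.card Z := by
  rw [← H11.card_inf_mul_relIndex (centralizer {a}) T]
  exact Nat.mul_le_mul_left _ (MW.ri_le h)

theorem cm {X Q H : Subgroup G} (h1 : X ≤ H) (h2 : Q ≤ H) :
    Nat.card X * Nat.card Q ≤ Nat.card (Q ⊓ X : Subgroup G) * Nat.card H := by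
  rw [← H11.card_inf_mul_relIndex Q X, ← H11.card_mul_relIndex h2, mul_assoc, mul_comm (Nat.card Q)]
  exact Nat.mul_le_mul_left _ (Nat.mul_le_mul_right _ (relIndex_le_of_le_right h1 index_ne_zero_of_finite))

theorem eq_of_two {N : Subgroup G} (h : Nat.card N ≤ 2) {a b : G} (ha : a ∈ N) (hb : b ∈ N) (a1 : a ≠ 1) (b1 : b ≠ 1) :
    a = b := by
  have := di (K := ⊥) bot_le (by simpa using h) ha (N.inv_mem hb) a1 (by simpa using b1)
  exact mul_inv_eq_one.mp this

theorem half {K M : Subgroup G} (h : K ≤ M) (h1 : ¬ M ≤ K) : 2 * Nat.card K ≤ Nat.card M := by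
  obtain ⟨x, a, b⟩ := SetLike.not_le_iff_exists.1 h1
  exact H11.two_mul_card_le_of_lt h a b

theorem normal_of (X : Subgroup G) (h : Nat.card G ≤ 2 * Nat.card X) : X.Normal := ⟨fun n hn g => by
  by_cases hg : g ∈ X
  · exact X.mul_mem (X.mul_mem hg hn) (X.inv_mem hg)
  · exact di le_top (by simpa using h) (mem_top _) (mem_top _) (fun m => hg (by simpa using X.mul_mem m (X.inv_mem hn)))
      (by simpa using hg)⟩

theorem sq_of (X : Subgroup G) (h : Nat.card G ≤ 2 * Nat.card X) (g : G) : g * g ∈ X := by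
  by_cases hg : g ∈ X
  · exact X.mul_mem hg hg
  · exact di le_top (by simpa using h) (mem_top _) (mem_top _) hg hg

theorem step (hG : IsPGroup 2 G) {K L : Subgroup G} (nK : K.Normal) (nL : L.Normal) (hKL : K ≤ L) (h : ¬ L ≤ K) :
    ∃ M : Subgroup G, M.Normal ∧ K ≤ M ∧ M ≤ L ∧ Nat.card M = 2 * Nat.card K ∧
      ∀ g, ∀ m ∈ M, g * m * g⁻¹ * m⁻¹ ∈ K := by
  haveI : Fact (Nat.Prime 2) := ⟨Nat.prime_two⟩
  obtain ⟨x, x1, x2, x3, x4⟩ := H11.exists_central_mod_in (S := ⊤) (N := K) (M := L) (hG.to_subgroup ⊤) le_top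
    (by rw [normalizer_eq_top]) (by rw [normalizer_eq_top]) h
  rw [pow_two] at x3
  let M : Subgroup G :=
    { carrier := {m | m ∈ K ∨ m * x ∈ K}
      one_mem' := .inl K.one_mem
      mul_mem' := by
        rintro a b (ha | ha) (hb | hb)
        · exact .inl (K.mul_mem ha hb)
        · exact .inr (by simpa [mul_assoc] using K.mul_mem ha hb)
        · exact .inr (by simpa [mul_assoc] using K.mul_mem ha (nK.conj_mem _ hb x⁻¹))
        · exact .inl (by simpa [mul_assoc] using K.mul_mem (K.mul_mem ha (nK.conj_mem _ hb x⁻¹)) (K.inv_mem x3))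
      inv_mem' := by
        rintro a (ha | ha)
        · exact .inl (K.inv_mem ha)
        · exact .inr (by simpa [mul_assoc] using K.mul_mem (nK.conj_mem _ (K.inv_mem ha) x) x3) }
  have cmm : ∀ g, ∀ m ∈ M, g * m * g⁻¹ * m⁻¹ ∈ K := by
    rintro g m (hm | hm)
    · exact K.mul_mem (nK.conj_mem _ hm g) (K.inv_mem hm)
    · have := K.mul_mem (K.mul_mem (nK.conj_mem _ hm g) (nK.conj_mem _ (K.inv_mem (x4 g trivial)) x⁻¹)) (K.inv_mem hm)
      simpa [mul_assoc] using this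
  have KM : K ≤ M := fun k hk => .inl hk
  have xM : x ∈ M := .inr x3
  refine ⟨M, ⟨fun m hm g => ?_⟩, KM, ?_, le_antisymm ?_ (H11.two_mul_card_le_of_lt KM xM x2), cmm⟩
  · simpa using M.mul_mem (KM (cmm g m hm)) hm
  · rintro m (hm | hm)
    · exact hKL hm
    · simpa using L.mul_mem (hKL hm) (L.inv_mem x1)
  · have e : (M : Set G) = (K : Set G) ∪ (fun k => k * x⁻¹) '' (K : Set G) := by
      ext m
      constructor
      · rintro (hm | hm)
        exacts [.inl hm, .inr ⟨_, hm, by simp⟩]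
      · rintro (hm | ⟨k, hk, rfl⟩)
        exacts [.inl hm, .inr (by simpa using hk)]
    have h1 := Set.ncard_union_le (K : Set G) ((fun k => k * x⁻¹) '' (K : Set G))
    rw [← e, Set.ncard_image_of_injective _ (mul_left_injective _)] at h1
    change (M : Set G).ncard ≤ 2 * (K : Set G).ncard
    omega

theorem ex8 (hG : IsPGroup 2 G) {B : Subgroup G} (nB : B.Normal) (h : 4 < Nat.card B) :
    ∃ A : Subgroup G, A.Normal ∧ A ≤ B ∧ Nat.card A = 8 := by
  obtain ⟨A, a1, -, a3, a4, -⟩ := step hG (K := ⊥) inferInstance nB bot_le fun e => by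
    have := card_le_of_le e; rw [card_bot] at this; omega
  rw [card_bot] at a4
  obtain ⟨C, b1, -, b3, b4, -⟩ := step hG a1 nB a3 fun e => by have := card_le_of_le e; omega
  obtain ⟨D, c1, -, c3, c4, -⟩ := step hG b1 nB b3 fun e => by have := card_le_of_le e; omega
  exact ⟨D, c1, c3, by omega⟩

omit [Finite G] in
theorem comm2 {A : Subgroup G} (h2 : ∀ a ∈ A, a * a = 1) {a b : G} (ha : a ∈ A) (hb : b ∈ A) : a * b = b * a := by
  rw [← inv_eq_of_mul_eq_one_left (h2 _ (A.mul_mem ha hb)), mul_inv_rev, inv_eq_of_mul_eq_one_left (h2 a ha),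
    inv_eq_of_mul_eq_one_left (h2 b hb)]

theorem idx8 (hG : IsPGroup 2 G) {A : Subgroup G} (nA : A.Normal) (h2 : ∀ a ∈ A, a * a = 1) (h8 : Nat.card A = 8) :
    Nat.card G ≤ 8 * Nat.card (centralizer (A : Set G)) := by
  haveI : Fact (Nat.Prime 2) := ⟨Nat.prime_two⟩
  haveI : IsMulCommutative A := ⟨⟨fun a b => Subtype.ext (comm2 h2 a.2 b.2)⟩⟩
  have h1 := H26.card_mulAut_of_elementary (V := A) (p := 2) (r := 3)
    (fun x => Subtype.ext (by rw [pow_two]; exact h2 _ x.2)) h8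
  have h3 : (centralizer (A : Set G)).index ∣ 168 := by
    have := card_subgroup_dvd_card A.normalizerMonoidHom.range
    rw [← index_ker, normalizerMonoidHom_ker, ← relIndex, normalizer_eq_top, relIndex_top_right, h1] at this
    simpa [Finset.prod_range_succ] using this
  obtain ⟨k, hk⟩ := hG.index (centralizer (A : Set G))
  rw [← (centralizer (A : Set G)).index_mul_card]
  refine Nat.mul_le_mul_right _ ?_
  rw [hk] at h3 ⊢
  exact Nat.le_of_dvd (by norm_num) ((Nat.Coprime.pow_left k (by norm_num : Nat.Coprime 2 21)).dvd_of_dvd_mul_right h3)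

theorem red (hG : IsPGroup 2 G)
    (mw : (∀ A : Subgroup G, A.Normal → IsMulCommutative A → (∀ a ∈ A, a ^ 2 = 1) → Nat.card A ≤ 4) →
      SectionalPRankLE 2 4 G)
    (h : ∀ A : Subgroup G, A.Normal → (∀ a ∈ A, a * a = 1) → Nat.card A = 8 → H11.SR 4 (⊤ : Subgroup G)) :
    SectionalPRankLE 2 4 G := by
  by_cases hc : ∀ A : Subgroup G, A.Normal → IsMulCommutative A → (∀ a ∈ A, a ^ 2 = 1) → Nat.card A ≤ 4
  · exact mw hc
  push Not at hc
  obtain ⟨B, b1, -, b3, b4⟩ := hc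
  obtain ⟨A, a1, a2, a3⟩ := ex8 hG b1 b4
  exact (h A a1 (fun a ha => (pow_two a).symm.trans (b3 a (a2 ha))) a3).sectional

theorem big (hG : IsPGroup 2 G) {X N : Subgroup G} (hN : N ≤ X) (h : ¬ N.relIndex X ≤ 2 ^ 4) :
    32 * Nat.card N ≤ Nat.card X := by
  haveI : Fact (Nat.Prime 2) := ⟨Nat.prime_two⟩
  have := pw_ge ((hG.to_subgroup X).index (N.subgroupOf X)) (not_le.mp h)
  rw [← H11.card_mul_relIndex hN, mul_comm]
  exact Nat.mul_le_mul_left _ this

omit [Finite G] in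
theorem invt {c v : G} (h : ∀ g, g * (v * v) = v * v * g) : v * (c * v * c⁻¹ * v⁻¹) * v⁻¹ = (c * v * c⁻¹ * v⁻¹)⁻¹ := by
  calc v * (c * v * c⁻¹ * v⁻¹) * v⁻¹ = v * c * v⁻¹ * (v * v * c⁻¹) * (v * v)⁻¹ := by group
    _ = _ := by rw [← h]; group

omit [Finite G] in
theorem sqc {A : Subgroup G} (h2 : ∀ a ∈ A, a * a = 1) {t : G} (ht : t ∈ centralizer (A : Set G))
    (h : ∀ g, g * t * g⁻¹ * t⁻¹ ∈ A) (g : G) : g * (t * t) = t * t * g := by
  have e := ht _ (h g)
  have e2 := h2 _ (h g)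
  obtain ⟨k, hk⟩ : ∃ k, k = g * t * g⁻¹ * t⁻¹ := ⟨_, rfl⟩
  rw [← hk] at e e2
  calc g * (t * t) = k * (t * k) * t * g := by rw [hk]; group
    _ = k * k * (t * t * g) := by rw [← e]; group
    _ = _ := by rw [e2, one_mul]

end Cfsg.Agent.H10R
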